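import Mathlib
import Cfsg.Prelude.Def_SubgroupEmbedding
import Cfsg.Prelude.Def_Transfer
import Cfsg.Agent.FStar.Layer
import Cfsg.Agent.Solv.Core

/-!
# Sidki pairs: the reduction of a minimal counterexample to the almost simple case
-/

set_option autoImplicit false

namespace Cfsg.Agent.Sid22

open Subgroup

universe u

variable {G : Type u} [Group G]

/-- The relative Sidki condition. -/
def SI (W H : Subgroup G) : Prop :=
  ∀ h ∈ H, ∀ v ∈ W, Odd (orderOf h) → v * h * v⁻¹ = h⁻¹ → ∃ w ∈ W, w ≠ 1 ∧ w * h = h * w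

/-- The situation of a minimal counterexample with `O_2(G) = 1`. -/
structure Min (V : Subgroup G) : Prop where
  inv : ∀ v ∈ V, v * v = 1
  comm : ∀ v ∈ V, ∀ w ∈ V, v * w = w * v
  ne : V ≠ ⊥
  sid : ∀ h v : G, v ∈ V → Odd (orderOf h) → v * h * v⁻¹ = h⁻¹ →
    ∃ w ∈ V, w ≠ 1 ∧ w * h = h * w
  core : pCore 2 G = ⊥
  sub : ∀ H : Subgroup G, H ≠ ⊤ → ∀ W ≤ V, W ≤ H → W ≠ ⊥ → SI W H →
    ∃ w ∈ W, w ≠ 1 ∧ w ∈ (pCore 2 H).map H.subtype
  lt : ∀ W < V, W ≠ ⊥ → SI W ⊤ → False
  quo : ∀ N : Subgroup G, N.Normal → N ≠ ⊥ → (∀ v ∈ V, v ∈ N → v = 1) →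
    ∃ v ∈ V, v ≠ 1 ∧ ∃ K : Subgroup G, K.Normal ∧ N ≤ K ∧ v ∈ K ∧
      ∀ x ∈ K, ∃ n : ℕ, x ^ (2 ^ n) ∈ N

theorem exists_odd_pow {x : G} (hx : Odd (orderOf x)) : ∃ k : ℕ, x = (x ^ 2) ^ k := by
  obtain ⟨k, hk⟩ := hx
  refine ⟨k + 1, ?_⟩
  rw [← pow_mul, show 2 * (k + 1) = orderOf x + 1 by omega, pow_succ, pow_orderOf_eq_one, one_mul]

theorem mem_of_sq {x : G} (hx : Odd (orderOf x)) {C : Subgroup G} (h : x * x ∈ C) : x ∈ C := by
  obtain ⟨k, hk⟩ := exists_odd_pow hx
  rw [hk, pow_two]
  exact C.pow_mem h k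

theorem odd_sq {x : G} (hx : Odd (orderOf x)) (h : x * x = 1) : x = 1 := by
  have := mem_of_sq hx (C := ⊥) (by rw [Subgroup.mem_bot]; exact h)
  rwa [Subgroup.mem_bot] at this

theorem mem_left_of_odd {K U : Subgroup G} (hU : ∀ u ∈ U, u * u = 1)
    (hUK : U ≤ normalizer (K : Set G)) {x : G} (hx : x ∈ K ⊔ U) (ho : Odd (orderOf x)) : x ∈ K := by
  rw [sup_comm] at hx
  obtain ⟨a, ha, b, hb, rfl⟩ := FStar.mem_sup_of_le_normalizer hUK hx
  apply mem_of_sq ho
  have h1 : a * b * (a * b) = (a * b * a⁻¹) * (a * a) * b := by group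
  rw [h1, hU a ha, mul_one]
  exact K.mul_mem ((Subgroup.mem_normalizer_iff.1 (hUK ha) b).1 hb) hb

theorem cent_of_core {K H : Subgroup G} (hKH : K ≤ H) (hHK : H ≤ normalizer (K : Set G))
    (hK : ∀ Q ≤ K, K ≤ normalizer (Q : Set G) → IsPGroup 2 Q → Q = ⊥) {w : G}
    (hw : w ∈ (pCore 2 H).map H.subtype) : w ∈ centralizer (K : Set G) := by
  set P := (pCore 2 H).map H.subtype with hP
  have hPH : P ≤ H := Subgroup.map_subtype_le _
  have hPn : H ≤ normalizer (P : Set G) := by
    have h1 : (pCore 2 H).Normal := inferInstance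
    have h2 : P.subgroupOf H = pCore 2 H := by
      rw [hP, Subgroup.subgroupOf, Subgroup.comap_map_eq_self_of_injective
        (Subgroup.subtype_injective H)]
    rw [← Subgroup.normal_subgroupOf_iff_le_normalizer hPH, h2]
    exact h1
  have hPp : IsPGroup 2 P := (Solv.pCore_isPGroup 2).map _
  have hbot : P ⊓ K = ⊥ := by
    apply hK _ inf_le_right
    · exact (le_inf (hKH.trans hPn) Subgroup.le_normalizer).trans
        (by
          intro x hx
          rw [Subgroup.mem_inf] at hx
          rw [Subgroup.mem_normalizer_iff]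
          intro y
          have h1 := Subgroup.mem_normalizer_iff.1 hx.1 y
          have h2 := Subgroup.mem_normalizer_iff.1 hx.2 y
          rw [Subgroup.mem_inf, Subgroup.mem_inf]
          exact and_congr h1 h2)
    · exact hPp.to_le inf_le_left
  rw [Subgroup.mem_centralizer_iff]
  intro k hk
  have h1 : k * w * k⁻¹ * w⁻¹ ∈ P ⊓ K := by
    refine Subgroup.mem_inf.2 ⟨?_, ?_⟩
    · exact P.mul_mem ((Subgroup.mem_normalizer_iff.1 (hPn (hKH hk)) w).1 hw) (P.inv_mem hw)
    · have h2 : k * w * k⁻¹ * w⁻¹ = k * (w * k⁻¹ * w⁻¹) := by group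
      rw [h2]
      exact K.mul_mem hk ((Subgroup.mem_normalizer_iff.1 (hHK (hPH hw)) k⁻¹).1 (K.inv_mem hk))
  rw [hbot, Subgroup.mem_bot] at h1
  have h2 := mul_inv_eq_one.1 h1
  exact mul_inv_eq_iff_eq_mul.1 h2

namespace Min

variable [Finite G] {V : Subgroup G}

omit [Finite G] in
/-- A subgroup without normal 2-subgroups on which part of `V` acts faithfully. -/
theorem faithful (hM : Min V) {K U : Subgroup G} (hUV : U ≤ V) (hU : U ≠ ⊥)
    (hUK : U ≤ normalizer (K : Set G))
    (hK : ∀ Q ≤ K, K ≤ normalizer (Q : Set G) → IsPGroup 2 Q → Q = ⊥)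
    (hC : ∀ u ∈ U, u ∈ centralizer (K : Set G) → u = 1) (hne : K ⊔ U ≠ ⊤) :
    ∃ h ∈ K, Odd (orderOf h) ∧ ∃ u ∈ U, u * h * u⁻¹ = h⁻¹ ∧ ∀ w ∈ U, w * h = h * w → w = 1 := by
  by_contra hcon
  push Not at hcon
  have hSI : SI U (K ⊔ U) := by
    intro h hh v hv ho hvh
    have hhK := mem_left_of_odd (fun u hu => hM.inv u (hUV hu)) hUK hh ho
    obtain ⟨w, hw, h1, h2⟩ := hcon h hhK ho v hv hvh
    exact ⟨w, hw, h2, h1⟩
  obtain ⟨w, hw, hw1, hwc⟩ := hM.sub (K ⊔ U) hne U hUV le_sup_right hU hSI
  exact hw1 (hC w hw (cent_of_core le_sup_left (sup_le Subgroup.le_normalizer hUK) hK hwc))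

theorem noCore (hM : Min V) {N : Subgroup G} (hN : N.Normal) :
    ∀ Q ≤ N, N ≤ normalizer (Q : Set G) → IsPGroup 2 Q → Q = ⊥ := by
  intro Q hQN hn hp
  have h1 : (Q.subgroupOf N).Normal := (Subgroup.normal_subgroupOf_iff_le_normalizer hQN).2 hn
  have h2 : IsPGroup 2 (Q.subgroupOf N) := hp.comap_subtype
  have h3 := Solv.le_pCore h1 h2
  have h4 : Q ≤ (pCore 2 N).map N.subtype := by
    intro x hx
    exact ⟨⟨x, hQN hx⟩, h3 (Subgroup.mem_subgroupOf.2 hx), rfl⟩
  have h5 := h4.trans (Solv.map_subtype_pCore_le 2 N)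
  rw [hM.core] at h5
  exact le_bot_iff.1 h5

theorem dich (hM : Min V) {N : Subgroup G} (hN : N.Normal)
    (hz : ∀ z ∈ N, z ∈ centralizer (N : Set G) → z * z = 1 → z = 1) :
    (∀ v ∈ V, v ∈ centralizer (N : Set G) → v = 1) ∨ V ≤ centralizer (N : Set G) := by
  by_contra hcon
  rw [not_or] at hcon
  obtain ⟨h1, h2⟩ := hcon
  push Not at h1
  obtain ⟨v₁, hv₁, hv₁C, hv₁1⟩ := h1
  set C := centralizer (N : Set G) with hC
  have hCn : C.Normal := inferInstance
  set W := V ⊓ C with hW
  have hWV : W < V := lt_of_le_of_ne inf_le_left (fun h => h2 (by rw [← h]; exact inf_le_right))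
  have hWne : W ≠ ⊥ := by
    intro h
    exact hv₁1 (by rw [← Subgroup.mem_bot, ← h]; exact ⟨hv₁, hv₁C⟩)
  have hns : ¬ SI W ⊤ := fun h => hM.lt W hWV hWne h
  rw [SI] at hns
  push Not at hns
  obtain ⟨h, -, v, hv, ho, hvh, hfix⟩ := hns
  -- C_W(h) = 1
  have hfix' : ∀ w ∈ W, w * h = h * w → w = 1 := by
    intro w hw hwh
    by_contra hw1
    exact hfix w hw hw1 hwh
  -- h ∈ C
  have hhC : h ∈ C := by
    apply mem_of_sq ho
    have h4 : v * h⁻¹ * v⁻¹ = h := by
      have h5 : v * h⁻¹ * v⁻¹ = (v * h * v⁻¹)⁻¹ := by group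
      rw [h5, hvh, inv_inv]
    have h3 : h * h = (h * v * h⁻¹) * (v⁻¹) := by
      calc h * h = h * (v * h⁻¹ * v⁻¹) := by rw [h4]
        _ = (h * v * h⁻¹) * (v⁻¹) := by group
    rw [h3]
    exact C.mul_mem (hCn.conj_mem v hv.2 h) (C.inv_mem hv.2)
  -- elements of `V` commuting with `h`
  set U := V ⊓ centralizer ({h} : Set G) with hU
  have memU : ∀ {w : G}, w ∈ U ↔ w ∈ V ∧ w * h = h * w := by
    intro w
    rw [hU, Subgroup.mem_inf, Subgroup.mem_centralizer_singleton_iff]
  have hUne : U ≠ ⊥ := by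
    obtain ⟨w, hw, hw1, hwh⟩ := hM.sid h v hv.1 ho hvh
    intro hb
    have : w ∈ U := memU.2 ⟨hw, hwh⟩
    rw [hb, Subgroup.mem_bot] at this
    exact hw1 this
  have hUC : ∀ u ∈ U, u ∈ C → u = 1 := fun u hu huC => hfix' u ⟨(memU.1 hu).1, huC⟩ (memU.1 hu).2
  have commC : ∀ {x y : G}, x ∈ C → y ∈ N → x * y = y * x := by
    intro x y hx hy
    exact (Subgroup.mem_centralizer_iff.1 hx y hy).symm
  have hUN : U ≤ normalizer (N : Set G) := by rw [Subgroup.normalizer_eq_top]; exact le_top
  have hne : N ⊔ U ≠ ⊤ := by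
    intro htop
    have h5 : h ∈ N := mem_left_of_odd (fun u hu => hM.inv u (memU.1 hu).1) hUN
      (by rw [htop]; exact Subgroup.mem_top h) ho
    have h6 : ∀ w ∈ W, w = 1 := fun w hw => hfix' w hw (commC hw.2 h5)
    exact hWne (by rw [eq_bot_iff]; intro w hw; exact Subgroup.mem_bot.2 (h6 w hw))
  obtain ⟨h₂, hh₂, ho₂, u, hu, huh, hfix₂⟩ := hM.faithful (K := N) inf_le_left hUne hUN (hM.noCore hN)
    hUC hne
  -- the product
  have hc : h * h₂ = h₂ * h := commC hhC hh₂
  have hoo : Odd (orderOf (h * h₂)) := by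
    have h5 := (show Commute h h₂ from hc).orderOf_mul_dvd_mul_orderOf
    exact Odd.of_dvd_nat (ho.mul ho₂) h5
  have huhc : u * h = h * u := (memU.1 hu).2
  have hvh₂ : v * h₂ = h₂ * v := commC hv.2 hh₂
  have hinv : (v * u) * (h * h₂) * (v * u)⁻¹ = (h * h₂)⁻¹ := by
    calc (v * u) * (h * h₂) * (v * u)⁻¹ = v * ((u * h) * h₂ * u⁻¹) * v⁻¹ := by group
      _ = v * (h * (u * h₂ * u⁻¹)) * v⁻¹ := by rw [huhc]; group
      _ = v * (h * h₂⁻¹) * v⁻¹ := by rw [huh]
      _ = (v * h * v⁻¹) * (v * h₂⁻¹ * v⁻¹) := by group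
      _ = h⁻¹ * h₂⁻¹ := by
        rw [hvh]
        congr 1
        rw [commC hv.2 (N.inv_mem hh₂), mul_assoc, mul_inv_cancel, mul_one]
      _ = (h * h₂)⁻¹ := by rw [hc, mul_inv_rev]
  obtain ⟨w, hw, hw1, hwx⟩ := hM.sid (h * h₂) (v * u) (V.mul_mem hv.1 (memU.1 hu).1) hoo hinv
  -- the element `z`
  have hz1 : w * h * w⁻¹ * h⁻¹ = h₂ * (w * h₂⁻¹ * w⁻¹) := by
    have h5 : w * h * h₂ = h₂ * h * w := by rw [mul_assoc, hwx, ← hc]
    have h6 : w * h = h₂ * h * w * h₂⁻¹ := by rw [← h5]; group
    rw [h6]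
    have h7 : (w * h₂⁻¹ * w⁻¹) * h = h * (w * h₂⁻¹ * w⁻¹) :=
      (commC hhC (hN.conj_mem _ (N.inv_mem hh₂) w)).symm
    calc h₂ * h * w * h₂⁻¹ * w⁻¹ * h⁻¹ = h₂ * (h * (w * h₂⁻¹ * w⁻¹)) * h⁻¹ := by group
      _ = h₂ * ((w * h₂⁻¹ * w⁻¹) * h) * h⁻¹ := by rw [h7]
      _ = _ := by group
  set z := w * h * w⁻¹ * h⁻¹ with hzdef
  have hzC : z ∈ C := C.mul_mem (hCn.conj_mem h hhC w) (C.inv_mem hhC)
  have hzN : z ∈ N := by
    rw [hz1]
    exact N.mul_mem hh₂ (hN.conj_mem _ (N.inv_mem hh₂) w)
  have hzv : v * z * v⁻¹ = z := by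
    rw [commC hv.2 hzN, mul_assoc, mul_inv_cancel, mul_one]
  have hzv' : v * z * v⁻¹ = z⁻¹ := by
    have hvw : v * w = w * v := hM.comm v hv.1 w hw
    have h4 : v * h⁻¹ * v⁻¹ = h := by
      have h5 : v * h⁻¹ * v⁻¹ = (v * h * v⁻¹)⁻¹ := by group
      rw [h5, hvh, inv_inv]
    have hvw' : v * w⁻¹ = w⁻¹ * v := by
      calc v * w⁻¹ = w⁻¹ * (w * v) * w⁻¹ := by group
        _ = w⁻¹ * (v * w) * w⁻¹ := by rw [hvw]
        _ = _ := by group
    -- `z` commutes with `h`
    have hzh : z * h = h * z := (commC hhC hzN).symm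
    have h8 : v * z * v⁻¹ = w * h⁻¹ * w⁻¹ * h := by
      calc v * z * v⁻¹ = (v * w) * h * (w⁻¹ * v⁻¹) * (v * h⁻¹ * v⁻¹) := by rw [hzdef]; group
        _ = (w * v) * h * (v⁻¹ * w⁻¹) * h := by
          rw [hvw, h4]
          congr 2
          rw [← mul_inv_rev, ← mul_inv_rev, hvw]
        _ = w * (v * h * v⁻¹) * w⁻¹ * h := by group
        _ = _ := by rw [hvh]
    have h10 : z = h⁻¹ * (w * h * w⁻¹) := by
      calc z = h⁻¹ * (h * z) := by group
        _ = h⁻¹ * (z * h) := by rw [hzh]
        _ = h⁻¹ * (w * h * w⁻¹) := by rw [hzdef]; group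
    calc v * z * v⁻¹ = w * h⁻¹ * w⁻¹ * h := h8
      _ = (h⁻¹ * (w * h * w⁻¹))⁻¹ := by group
      _ = z⁻¹ := by rw [← h10]
  have hz0 : z = 1 := hz z hzN hzC (by
    have h5 : z = z⁻¹ := hzv.symm.trans hzv'
    exact mul_eq_one_iff_eq_inv.2 h5)
  have hwh : w * h = h * w := by
    have h5 : w * h * w⁻¹ = h := mul_inv_eq_one.1 hz0
    exact mul_inv_eq_iff_eq_mul.1 h5
  have hwh₂ : w * h₂ = h₂ * w := by
    rw [hz1] at hz0
    have h5 : h₂ = w * h₂ * w⁻¹ := by
      have h6 := mul_eq_one_iff_eq_inv.1 hz0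
      have h7 : (w * h₂⁻¹ * w⁻¹)⁻¹ = w * h₂ * w⁻¹ := by group
      exact h6.trans h7
    have h6 := mul_inv_eq_iff_eq_mul.1 h5.symm
    exact h6
  exact hw1 (hfix₂ w (memU.2 ⟨hw, hwh⟩) hwh₂)

theorem cent_top (hM : Min V) {C : Subgroup G} (hC : C.Normal) (hV : V ≤ C) : C = ⊤ := by
  by_contra hne
  have hSI : SI V C := fun h _ v hv ho hvh => hM.sid h v hv ho hvh
  obtain ⟨w, hw, hw1, hwc⟩ := hM.sub C hne V le_rfl hV hM.ne hSI
  have h5 := Solv.map_subtype_pCore_le 2 C hwc
  rw [hM.core, Subgroup.mem_bot] at h5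
  exact hw1 h5

theorem odd_of_sq {N : Subgroup G} (h : ∀ z ∈ N, z * z = 1 → z = 1) {z : G} (hz : z ∈ N) :
    Odd (orderOf z) := by
  by_contra hcon
  rw [Nat.not_odd_iff_even] at hcon
  obtain ⟨k, hk⟩ := hcon
  have hpos := orderOf_pos z
  have h1 : z ^ k * z ^ k = 1 := by rw [← pow_add, ← hk, pow_orderOf_eq_one]
  have h2 := h _ (N.pow_mem hz k) h1
  have h3 := orderOf_dvd_of_pow_eq_one h2
  have h4 := Nat.le_of_dvd (by omega) h3
  omega

/-- There is no nontrivial abelian normal subgroup. -/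
theorem no_abelian (hM : Min V) {A : Subgroup G} (hA : A.Normal)
    (hab : ∀ x ∈ A, ∀ y ∈ A, x * y = y * x) : A = ⊥ := by
  by_contra hA1
  obtain ⟨N, hN, hNA, hN1, hmin⟩ := Solv.exists_minimal_normal A hA hA1
  have hNab : ∀ x ∈ N, ∀ y ∈ N, x * y = y * x := fun x hx y hy => hab x (hNA hx) y (hNA hy)
  -- no elements of order 2 in `N`
  have hsq : ∀ z ∈ N, z * z = 1 → z = 1 := by
    let Q : Subgroup G :=
      { carrier := {z | z ∈ N ∧ z * z = 1}
        one_mem' := ⟨N.one_mem, by simp⟩
        mul_mem' := by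
          rintro x y ⟨hx, hx2⟩ ⟨hy, hy2⟩
          refine ⟨N.mul_mem hx hy, ?_⟩
          calc x * y * (x * y) = x * (y * x) * y := by group
            _ = x * (x * y) * y := by rw [hNab y hy x hx]
            _ = (x * x) * (y * y) := by group
            _ = 1 := by rw [hx2, hy2, one_mul]
        inv_mem' := by
          rintro x ⟨hx, hx2⟩
          refine ⟨N.inv_mem hx, ?_⟩
          rw [← mul_inv_rev, hx2, inv_one] }
    have hQn : Q.Normal := by
      constructor
      rintro z ⟨hz, hz2⟩ g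
      refine ⟨hN.conj_mem z hz g, ?_⟩
      calc g * z * g⁻¹ * (g * z * g⁻¹) = g * (z * z) * g⁻¹ := by group
        _ = 1 := by rw [hz2, mul_one, mul_inv_cancel]
    have hQp : IsPGroup 2 Q := by
      intro z
      refine ⟨1, ?_⟩
      apply Subtype.ext
      rw [pow_one, pow_two]
      exact z.2.2
    have hQ := Solv.le_pCore hQn hQp
    rw [hM.core] at hQ
    intro z hz hz2
    have : z ∈ Q := ⟨hz, hz2⟩
    exact Subgroup.mem_bot.1 (hQ this)
  have hodd : ∀ {z : G}, z ∈ N → Odd (orderOf z) := fun hz => odd_of_sq hsq hz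
  rcases hM.dich hN (fun z hz _ h => hsq z hz h) with hf | hf
  · -- `V` is faithful on `N`
    have hVN : V ≤ normalizer (N : Set G) := by rw [Subgroup.normalizer_eq_top]; exact le_top
    by_cases htop : N ⊔ V = ⊤
    · -- every nontrivial element of `V` inverts `N`
      have hinv : ∀ v ∈ V, v ≠ 1 → ∀ n ∈ N, v * n * v⁻¹ = n⁻¹ := by
        intro v hv hv1
        let D : Subgroup G := N ⊓ centralizer ({v} : Set G)
        have memD : ∀ {x : G}, x ∈ D ↔ x ∈ N ∧ x * v = v * x := by
          intro x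
          rw [Subgroup.mem_inf, Subgroup.mem_centralizer_singleton_iff]
        have hDn : D.Normal := by
          rw [← Subgroup.normalizer_eq_top_iff, eq_top_iff, ← htop]
          apply sup_le
          · intro n hn
            rw [Subgroup.mem_normalizer_iff]
            intro x
            constructor
            · intro hx
              have hxN := (memD.1 hx).1
              have h1 : n * x * n⁻¹ = x := by rw [hNab n hn x hxN, mul_assoc, mul_inv_cancel, mul_one]
              rwa [h1]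
            · intro hx
              have hxN := (memD.1 hx).1
              have h1 : x = n⁻¹ * (n * x * n⁻¹) * n := by group
              have h2 : n⁻¹ * (n * x * n⁻¹) * n = n * x * n⁻¹ := by
                rw [hNab n⁻¹ (N.inv_mem hn) _ hxN, mul_assoc, inv_mul_cancel, mul_one]
              rw [h1, h2]
              exact hx
          · have key : ∀ w ∈ V, ∀ x ∈ D, w * x * w⁻¹ ∈ D := by
              intro w hw x hx
              refine memD.2 ⟨hN.conj_mem _ (memD.1 hx).1 w, ?_⟩
              have h1 := hM.comm w hw v hv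
              have h2 : w⁻¹ * v = v * w⁻¹ := by
                calc w⁻¹ * v = w⁻¹ * (v * w) * w⁻¹ := by group
                  _ = w⁻¹ * (w * v) * w⁻¹ := by rw [h1]
                  _ = _ := by group
              calc w * x * w⁻¹ * v = w * x * (w⁻¹ * v) := by group
                _ = w * (x * v) * w⁻¹ := by rw [h2]; group
                _ = (w * v) * x * w⁻¹ := by rw [(memD.1 hx).2]; group
                _ = v * (w * x * w⁻¹) := by rw [h1]; group
            intro w hw
            rw [Subgroup.mem_normalizer_iff]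
            intro x
            refine ⟨key w hw x, fun hx => ?_⟩
            have := key w⁻¹ (V.inv_mem hw) _ hx
            have h3 : w⁻¹ * (w * x * w⁻¹) * w⁻¹⁻¹ = x := by group
            rwa [h3] at this
        have hD : D = ⊥ := by
          rcases hmin D hDn inf_le_left with h | h
          · exact h
          · exfalso
            apply hv1
            apply hf v hv
            rw [Subgroup.mem_centralizer_iff]
            intro n hn
            have : n ∈ D := by rw [h]; exact hn
            exact (memD.1 this).2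
        intro n hn
        have hvn : v * n * v⁻¹ ∈ N := hN.conj_mem n hn v
        have h1 : n * (v * n * v⁻¹) ∈ D := by
          refine memD.2 ⟨N.mul_mem hn hvn, ?_⟩
          have hvv : v * v = 1 := hM.inv v hv
          have hvi : v⁻¹ = v := inv_eq_of_mul_eq_one_left hvv
          calc n * (v * n * v⁻¹) * v = n * v * n := by group
            _ = (v * v) * n * v⁻¹ * n := by rw [hvv, one_mul, hvi]
            _ = v * ((v * n * v⁻¹) * n) := by group
            _ = v * (n * (v * n * v⁻¹)) := by rw [hNab _ hvn n hn]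
        rw [hD, Subgroup.mem_bot] at h1
        exact (inv_eq_of_mul_eq_one_right h1).symm
      obtain ⟨n, hn, hn1⟩ : ∃ n ∈ N, n ≠ 1 := Subgroup.ne_bot_iff_exists_ne_one.1 hN1 |>.elim
        (fun a ha => ⟨a.1, a.2, fun h => ha (Subtype.ext h)⟩)
      obtain ⟨v, hv, hv1⟩ : ∃ v ∈ V, v ≠ 1 := Subgroup.ne_bot_iff_exists_ne_one.1 hM.ne |>.elim
        (fun a ha => ⟨a.1, a.2, fun h => ha (Subtype.ext h)⟩)
      obtain ⟨w, hw, hw1, hwn⟩ := hM.sid n v hv (hodd hn) (hinv v hv hv1 n hn)
      have h1 := hinv w hw hw1 n hn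
      rw [hwn, mul_assoc, mul_inv_cancel, mul_one] at h1
      exact hn1 (hsq n hn (mul_eq_one_iff_eq_inv.2 h1))
    · obtain ⟨h, hh, ho, u, hu, huh, hfix⟩ := hM.faithful (K := N) le_rfl hM.ne hVN (hM.noCore hN) hf htop
      obtain ⟨w, hw, hw1, hwh⟩ := hM.sid h u hu ho huh
      exact hw1 (hfix w hw hwh)
  · -- `V` centralizes `N`
    have hCt := hM.cent_top (C := centralizer (N : Set G)) inferInstance hf
    have hcent : ∀ x : G, ∀ n ∈ N, x * n = n * x := by
      intro x n hn
      have : x ∈ centralizer (N : Set G) := by rw [hCt]; exact Subgroup.mem_top x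
      exact (Subgroup.mem_centralizer_iff.1 this n hn).symm
    obtain ⟨v, hv, hv1, K, hK, hNK, hvK, hKp⟩ := hM.quo N hN hN1
      (fun v hv hvN => hsq v hvN (hM.inv v hv))
    have hnil : Group.IsNilpotent K := by
      have hn : (N.subgroupOf K).Normal := hN.subgroupOf K
      have h1 : Group.IsNilpotent (K ⧸ N.subgroupOf K) := by
        have : IsPGroup 2 (K ⧸ N.subgroupOf K) := by
          intro q
          obtain ⟨x, rfl⟩ := QuotientGroup.mk_surjective q
          obtain ⟨n, hn⟩ := hKp x x.2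
          refine ⟨n, ?_⟩
          rw [← QuotientGroup.mk_pow, QuotientGroup.eq_one_iff, Subgroup.mem_subgroupOf]
          exact hn
        exact this.isNilpotent
      refine Subgroup.isNilpotent_of_ker_le_center (QuotientGroup.mk' (N.subgroupOf K)) ?_
      rw [QuotientGroup.ker_mk']
      intro x hx
      rw [Subgroup.mem_center_iff]
      intro g
      apply Subtype.ext
      exact hcent g x (Subgroup.mem_subgroupOf.1 hx)
    obtain ⟨P⟩ : Nonempty (Sylow 2 K) := inferInstance
    have : Fact (Nat.Prime 2) := ⟨Nat.prime_two⟩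
    have hPn : (P : Subgroup K).Normal := inferInstance
    have h2 : (P : Subgroup K) = ⊥ := by
      rw [eq_bot_iff]
      intro x hx
      have h3 := Solv.le_pCore hPn P.isPGroup' hx
      have h4 := Solv.map_subtype_pCore_le 2 K ⟨x, h3, rfl⟩
      rw [hM.core, Subgroup.mem_bot] at h4
      exact Subgroup.mem_bot.2 (Subtype.ext h4)
    have h3 : (2 : ℕ) ∣ Nat.card K := by
      have h4 : orderOf v = 2 := by
        rw [orderOf_eq_prime_iff]
        exact ⟨by rw [pow_two]; exact hM.inv v hv, hv1⟩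
      have h5 : orderOf (⟨v, hvK⟩ : K) = 2 := by
        rw [← h4]; exact Subgroup.orderOf_mk v hvK
      rw [← h5]
      exact orderOf_dvd_natCard _
    have h4 := P.ne_bot_of_dvd_card h3
    exact h4 h2

/-- Every nontrivial normal subgroup has trivial centralizer and is supplemented by `V`. -/
theorem normal_facts (hM : Min V) {N : Subgroup G} (hN : N.Normal) (hne : N ≠ ⊥) :
    centralizer (N : Set G) = ⊥ ∧ N ⊔ V = ⊤ := by
  have hCn : (centralizer (N : Set G)).Normal := inferInstance
  have hZ : N ⊓ centralizer (N : Set G) = ⊥ := by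
    apply hM.no_abelian (Subgroup.normal_inf_normal _ _)
    intro x hx y hy
    exact (Subgroup.mem_centralizer_iff.1 hy.2 x hx.1)
  have hz : ∀ z ∈ N, z ∈ centralizer (N : Set G) → z = 1 := by
    intro z hz hzC
    have : z ∈ N ⊓ centralizer (N : Set G) := ⟨hz, hzC⟩
    rwa [hZ, Subgroup.mem_bot] at this
  have hVN : V ≤ normalizer (N : Set G) := by rw [Subgroup.normalizer_eq_top]; exact le_top
  rcases hM.dich hN (fun z hz1 hzC _ => hz z hz1 hzC) with hf | hf
  · have htop : N ⊔ V = ⊤ := by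
      by_contra htop
      obtain ⟨h, hh, ho, u, hu, huh, hfix⟩ := hM.faithful (K := N) le_rfl hM.ne hVN (hM.noCore hN) hf htop
      obtain ⟨w, hw, hw1, hwh⟩ := hM.sid h u hu ho huh
      exact hw1 (hfix w hw hwh)
    refine ⟨?_, htop⟩
    have hsq : ∀ x ∈ centralizer (N : Set G), x * x = 1 := by
      intro x hx
      apply hz _ _ ((centralizer (N : Set G)).mul_mem hx hx)
      have hxt : x ∈ V ⊔ N := by rw [sup_comm, htop]; exact Subgroup.mem_top x
      obtain ⟨a, ha, b, hb, rfl⟩ := FStar.mem_sup_of_le_normalizer hVN hxt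
      have h1 : a * b * (a * b) = (a * b * a⁻¹) * (a * a) * b := by group
      rw [h1, hM.inv a ha, mul_one]
      exact N.mul_mem (hN.conj_mem b hb a) hb
    apply hM.no_abelian hCn
    intro x hx y hy
    have hx1 := hsq x hx
    have hy1 := hsq y hy
    have hxy1 := hsq (x * y) (mul_mem hx hy)
    calc x * y = x * (x * y * (x * y)) * y := by rw [hxy1, mul_one]
      _ = (x * x) * (y * x) * (y * y) := by group
      _ = y * x := by rw [hx1, hy1, one_mul, mul_one]
  · exfalso
    apply hne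
    have hCt := hM.cent_top hCn hf
    rw [hCt, inf_top_eq] at hZ
    exact hZ

theorem fitting_bot (hM : Min V) : fittingSubgroup G = ⊥ := by
  by_contra hne
  have hn : (fittingSubgroup G).Normal := inferInstance
  have h1 := (hM.normal_facts hn hne).1
  have h2 : Group.IsNilpotent (fittingSubgroup G) := Solv.fitting_isNilpotent
  have h3 : Nontrivial (fittingSubgroup G) := (Subgroup.nontrivial_iff_ne_bot _).2 hne
  have h4 : Nontrivial (center (fittingSubgroup G)) :=
    (Subgroup.nontrivial_iff_ne_bot _).2 (Group.IsNilpotent.center_ne_bot _)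
  obtain ⟨z, hz⟩ := exists_ne (1 : center (fittingSubgroup G))
  have h5 : ((z : fittingSubgroup G) : G) ∈ centralizer (fittingSubgroup G : Set G) := by
    rw [Subgroup.mem_centralizer_iff]
    intro x hx
    have := Subgroup.mem_center_iff.1 z.2 ⟨x, hx⟩
    exact congrArg Subtype.val this
  rw [h1, Subgroup.mem_bot] at h5
  exact hz (Subtype.ext (Subtype.ext h5))

theorem exists_odd_elt {K : Subgroup G} (hK : ¬ IsPGroup 2 K) :
    ∃ g ∈ K, g ≠ 1 ∧ Odd (orderOf g) := by
  rw [IsPGroup] at hK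
  push Not at hK
  obtain ⟨x, hx⟩ := hK
  obtain ⟨n, m, hm, hnm⟩ := Nat.exists_eq_two_pow_mul_odd (orderOf_pos (x : G)).ne'
  refine ⟨(x : G) ^ (2 ^ n), K.pow_mem x.2 _, ?_, ?_⟩
  · intro h
    exact hx n (Subtype.ext h)
  · rw [orderOf_pow, hnm, Nat.gcd_eq_right (Dvd.intro _ rfl), Nat.mul_div_cancel_left _ (by positivity)]
    exact hm

theorem final (hM : Min V) : IsSimpleGroup ↥(generalizedFittingSubgroup G) ∧
    ¬ IsMulCommutative ↥(generalizedFittingSubgroup G) ∧ V ⊔ generalizedFittingSubgroup G = ⊤ := by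
  have hF : generalizedFittingSubgroup G = layer G := by
    rw [generalizedFittingSubgroup, hM.fitting_bot, sup_bot_eq]
  have hEn : (layer G).Normal := inferInstance
  have hE : layer G ≠ ⊥ := by
    intro h
    have h1 := FStar.centralizer_generalizedFitting_le (G := G)
    rw [hF, h] at h1
    apply hM.ne
    rw [eq_bot_iff]
    intro x hx
    apply h1
    rw [Subgroup.mem_centralizer_iff]
    intro y hy
    have hy1 : y = 1 := Subgroup.mem_bot.1 hy
    rw [hy1, one_mul, mul_one]
  obtain ⟨K, hK⟩ : ∃ L : Subgroup G, IsComponent L := by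
    by_contra hcon
    push Not at hcon
    apply hE
    rw [eq_bot_iff, FStar.layer_le_iff]
    intro L hL
    exact absurd hL (hcon L)
  obtain ⟨hCE, hEV⟩ := hM.normal_facts hEn hE
  have hEK := FStar.layer_le_normalizer hK
  -- the centre of `K` is trivial
  have hZK : ∀ z ∈ K, z ∈ centralizer (K : Set G) → z = 1 := by
    intro z hz hzC
    have h1 : z ∈ centralizer (layer G : Set G) := by
      have h2 : layer G ≤ centralizer ({z} : Set G) := by
        refine (FStar.layer_le_component_sup_centralizer hK).trans (sup_le ?_ ?_)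
        · intro x hx
          rw [Subgroup.mem_centralizer_singleton_iff]
          exact (Subgroup.mem_centralizer_iff.1 hzC x hx)
        · intro x hx
          rw [Subgroup.mem_centralizer_singleton_iff]
          exact (Subgroup.mem_centralizer_iff.1 hx z hz).symm
      rw [Subgroup.mem_centralizer_iff]
      intro y hy
      exact (Subgroup.mem_centralizer_singleton_iff.1 (h2 hy))
    rwa [hCE, Subgroup.mem_bot] at h1
  have hKnp : ¬ IsPGroup 2 K := by
    intro h
    have : Fact (Nat.Prime 2) := ⟨Nat.prime_two⟩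
    have h1 : Group.IsNilpotent K := h.isNilpotent
    exact FStar.not_isSolvable_of_isQuasisimple hK.2 inferInstance
  have hKcore : ∀ Q ≤ K, K ≤ normalizer (Q : Set G) → IsPGroup 2 Q → Q = ⊥ := by
    intro Q hQK hQn hQp
    have h1 : (Q.subgroupOf K).Normal := (Subgroup.normal_subgroupOf_iff_le_normalizer hQK).2 hQn
    rcases FStar.eq_or_commutator_eq_bot hK.2 hQK h1.isSubnormal with h2 | h2
    · rw [h2] at hQp
      exact absurd hQp hKnp
    · rw [eq_bot_iff]
      intro x hx
      rw [Subgroup.mem_bot]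
      apply hZK x (hQK hx)
      rw [Subgroup.commutator_eq_bot_iff_le_centralizer] at h2
      exact h2 hx
  -- conjugates of `K` commute with `K`
  have hconj : ∀ x : G, x ∉ normalizer (K : Set G) → ∀ a ∈ K, ∀ b ∈ K,
      a * (x * b * x⁻¹) = (x * b * x⁻¹) * a := by
    intro x hx a ha b hb
    have h1 : IsComponent (K.map (MulAut.conj x).toMonoidHom) := (FStar.isComponent_conj x).2 hK
    have hne : K ≠ K.map (MulAut.conj x).toMonoidHom := by
      intro h
      apply hx
      rw [Subgroup.mem_normalizer_iff]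
      intro y
      constructor
      · intro hy
        rw [h]
        exact ⟨y, hy, rfl⟩
      · intro hy
        rw [h] at hy
        obtain ⟨z, hz, hzy⟩ := hy
        have h2 : x * z * x⁻¹ = x * y * x⁻¹ := hzy
        have h3 : z = y := by
          have h4 := mul_right_cancel h2
          exact mul_left_cancel h4
        rw [← h3]; exact hz
    have h2 := FStar.component_commute hK h1 hne
    rw [Subgroup.commutator_eq_bot_iff_le_centralizer] at h2
    have h3 := Subgroup.mem_centralizer_iff.1 (h2 ha) (x * b * x⁻¹) ⟨b, hb, rfl⟩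
    exact h3.symm
  have hconj1 : ∀ x : G, x ∉ normalizer (K : Set G) → ∀ a ∈ K, ∀ b ∈ K, a = x * b * x⁻¹ → a = 1 := by
    intro x hx a ha b hb hab
    apply hZK a ha
    rw [Subgroup.mem_centralizer_iff]
    intro y hy
    have := hconj x hx y hy b hb
    rw [← hab] at this
    exact this
  by_cases hVK : V ≤ normalizer (K : Set G)
  · -- `K` is normal
    have hKn : K.Normal := by
      rw [← Subgroup.normalizer_eq_top_iff, eq_top_iff, ← hEV]
      exact sup_le hEK hVK
    obtain ⟨hCK, hKV⟩ := hM.normal_facts hKn (FStar.ne_bot hK.2)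
    have hKE : layer G = K := by
      apply le_antisymm _ (FStar.component_le_layer hK)
      rw [FStar.layer_le_iff]
      intro L hL
      by_contra hne
      have h1 := FStar.component_commute hL hK (fun h => hne h.le)
      rw [Subgroup.commutator_eq_bot_iff_le_centralizer, hCK] at h1
      exact FStar.ne_bot hL.2 (le_bot_iff.1 h1)
    rw [hF, hKE]
    have hZ : center K = ⊥ := by
      rw [eq_bot_iff]
      intro z hz
      rw [Subgroup.mem_bot]
      apply Subtype.ext
      apply hZK z z.2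
      rw [Subgroup.mem_centralizer_iff]
      intro y hy
      exact congrArg Subtype.val (Subgroup.mem_center_iff.1 hz ⟨y, hy⟩)
    have hnt : Nontrivial K := FStar.nontrivial_of_isQuasisimple hK.2
    refine ⟨?_, ?_, by rw [sup_comm]; exact hKV⟩
    · constructor
      intro N hN
      rcases FStar.eq_top_or_le_center_of_normal hK.2 N hN with h | h
      · exact Or.inr h
      · left
        rw [hZ] at h
        exact le_bot_iff.1 h
    · intro h
      apply FStar.center_ne_top_of_isQuasisimple hK.2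
      rw [eq_top_iff]
      intro x _
      rw [Subgroup.mem_center_iff]
      intro y
      exact h.is_comm.comm y x
  · exfalso
    -- elements of `V` commuting with `K`
    have hVC : ∀ v ∈ V, v ∈ centralizer (K : Set G) → v = 1 := by
      intro v hv hvC
      have hnc : (normalClosure (K : Set G)) ≤ centralizer ({v} : Set G) := by
        rw [Subgroup.normalClosure, Subgroup.closure_le]
        intro y hy
        rw [Group.mem_conjugatesOfSet_iff] at hy
        obtain ⟨k, hk, hky⟩ := hy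
        obtain ⟨g, rfl⟩ := isConj_iff.1 hky
        rw [SetLike.mem_coe, Subgroup.mem_centralizer_singleton_iff]
        have hg : g ∈ V ⊔ layer G := by rw [sup_comm, hEV]; exact Subgroup.mem_top g
        obtain ⟨w, hw, e, he, rfl⟩ := FStar.mem_sup_of_le_normalizer
          (by rw [Subgroup.normalizer_eq_top]; exact le_top) hg
        have hk' : e * k * e⁻¹ ∈ K := (Subgroup.mem_normalizer_iff.1 (hEK he) k).1 hk
        have h1 := Subgroup.mem_centralizer_iff.1 hvC _ hk'
        have h2 := hM.comm v hv w hw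
        have h3 : w⁻¹ * v = v * w⁻¹ := by
          calc w⁻¹ * v = w⁻¹ * (v * w) * w⁻¹ := by group
            _ = w⁻¹ * (w * v) * w⁻¹ := by rw [h2]
            _ = _ := by group
        calc w * e * k * (w * e)⁻¹ * v = w * (e * k * e⁻¹) * (w⁻¹ * v) := by group
          _ = w * ((e * k * e⁻¹) * v) * w⁻¹ := by rw [h3]; group
          _ = (w * v) * (e * k * e⁻¹) * w⁻¹ := by rw [h1]; group
          _ = v * (w * e * k * (w * e)⁻¹) := by rw [← h2]; group
      have hne : normalClosure (K : Set G) ≠ ⊥ := by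
        intro h
        apply FStar.ne_bot hK.2
        rw [eq_bot_iff, ← h]
        exact Subgroup.le_normalClosure
      have h1 := (hM.normal_facts inferInstance hne).1
      rw [← Subgroup.mem_bot, ← h1, Subgroup.mem_centralizer_iff]
      intro y hy
      exact Subgroup.mem_centralizer_singleton_iff.1 (hnc hy)
    obtain ⟨v₀, hv₀, hv₀K⟩ := Set.not_subset.1 hVK
    set U := V ⊓ normalizer (K : Set G) with hU
    by_cases hU1 : U = ⊥
    · -- `V` acts freely
      have hfree : ∀ v ∈ V, v ≠ 1 → v ∉ normalizer (K : Set G) := by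
        intro v hv hv1 hvn
        have : v ∈ U := ⟨hv, hvn⟩
        rw [hU1, Subgroup.mem_bot] at this
        exact hv1 this
      obtain ⟨s, hs, hs1⟩ : ∃ v ∈ V, v ≠ 1 := (Subgroup.ne_bot_iff_exists_ne_one.1 hM.ne).elim
        (fun a ha => ⟨a.1, a.2, fun h => ha (Subtype.ext h)⟩)
      obtain ⟨g, hg, hg1, hgo⟩ := exists_odd_elt hKnp
      have hsn := hfree s hs hs1
      have hss : s * s = 1 := hM.inv s hs
      have hsi : s⁻¹ = s := inv_eq_of_mul_eq_one_left hss
      set g' := s * g⁻¹ * s⁻¹ with hg'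
      have hcom : g * g' = g' * g := hconj s hsn g hg g⁻¹ (K.inv_mem hg)
      have hg'o : Odd (orderOf g') := by
        have h1 : orderOf g' = orderOf g := by
          rw [hg', ← orderOf_inv g]
          exact (MulAut.conj s).orderOf_eq g⁻¹
        rw [h1]; exact hgo
      have ho : Odd (orderOf (g * g')) :=
        Odd.of_dvd_nat (hgo.mul hg'o) ((show Commute g g' from hcom).orderOf_mul_dvd_mul_orderOf)
      have hsh : s * (g * g') * s⁻¹ = (g * g')⁻¹ := by
        calc s * (g * g') * s⁻¹ = (s * g * s⁻¹) * (s * s) * g⁻¹ * (s * s)⁻¹ := by rw [hg']; group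
          _ = (s * g * s⁻¹) * g⁻¹ := by rw [hss]; group
          _ = g'⁻¹ * g⁻¹ := by rw [hg']; group
          _ = (g * g')⁻¹ := by group
      obtain ⟨w, hw, hw1, hwh⟩ := hM.sid (g * g') s hs ho hsh
      have hwn := hfree w hw hw1
      by_cases hws : w * s = 1
      · have hws' : w = s := by rw [← hsi]; exact mul_eq_one_iff_eq_inv.1 hws
        rw [hws'] at hwh
        have h1 : g * g' = (g * g')⁻¹ := by
          rw [← hsh, hwh, mul_assoc, mul_inv_cancel, mul_one]
        have h2 := odd_sq ho (mul_eq_one_iff_eq_inv.2 h1)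
        apply hg1
        apply hconj1 s hsn g hg g hg
        have h4 := mul_eq_one_iff_eq_inv.1 h2
        have h5 : g'⁻¹ = s * g * s⁻¹ := by rw [hg']; group
        exact h4.trans h5
      · have hwsn := hfree (w * s) (V.mul_mem hw hs) hws
        -- `g` commutes with `K`
        apply hg1
        apply hZK g hg
        rw [Subgroup.mem_centralizer_iff]
        intro y hy
        have e1 : g = (w * g * w⁻¹) * ((w * s) * g⁻¹ * (w * s)⁻¹) * (s * g * s⁻¹) := by
          have h3 : g * g' = w * (g * g') * w⁻¹ := by rw [hwh]; group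
          calc g = (g * g') * g'⁻¹ := by group
            _ = w * (g * g') * w⁻¹ * g'⁻¹ := by rw [← h3]
            _ = _ := by rw [hg']; group
        have c1 := hconj w hwn y hy g hg
        have c2 := hconj (w * s) hwsn y hy g⁻¹ (K.inv_mem hg)
        have c3 := hconj s hsn y hy g hg
        have C1 : Commute y (w * g * w⁻¹) := c1
        have C2 : Commute y ((w * s) * g⁻¹ * (w * s)⁻¹) := c2
        have C3 : Commute y (s * g * s⁻¹) := c3
        have C := (C1.mul_right C2).mul_right C3
        rw [← e1] at C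
        exact C
    · -- `U ≠ 1`
      have hUK : U ≤ normalizer (K : Set G) := inf_le_right
      have hne : K ⊔ U ≠ ⊤ := by
        intro h
        apply hv₀K
        have h1 : K ⊔ U ≤ normalizer (K : Set G) := sup_le Subgroup.le_normalizer hUK
        rw [h] at h1
        exact h1 (Subgroup.mem_top v₀)
      obtain ⟨h, hh, ho, u, hu, huh, hfix⟩ := hM.faithful (K := K) inf_le_left hU1 hUK hKcore
        (fun u hu huC => hVC u hu.1 huC) hne
      obtain ⟨w, hw, hw1, hwh⟩ := hM.sid h u hu.1 ho huh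
      by_cases hwn : w ∈ normalizer (K : Set G)
      · exact hw1 (hfix w ⟨hw, hwn⟩ hwh)
      · have h1 : h = 1 := by
          apply hconj1 w hwn h hh h hh
          rw [hwh]; group
        apply hU1
        rw [eq_bot_iff]
        intro x hx
        rw [Subgroup.mem_bot]
        apply hfix x hx
        rw [h1, mul_one, one_mul]

end Min

end Cfsg.Agent.Sid22
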